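import Cfsg.Agent.H97.DG.SpEl

/-!
# Generation of the symplectic groups by root elements (S4180, rows `PSp`)
-/

set_option autoImplicit false

namespace Cfsg.Agent.H97.DG

open Cfsg Cfsg.Agent.ClassicalGeometry.SympBasic Cfsg.Agent.ClassicalGeometry.SympAutSemi

variable {F : Type*} [Field F] {m : ℕ}

/-- every vector with a nonzero coordinate at `a` is in the orbit of a multiple of `bv a` -/
theorem exists_move (M : Subgroup (Matrix.symplecticGroup (Fin m) F))
    (hR : ∀ a b : Fin m ⊕ Fin m, b ≠ op a → a ≠ b → ∀ s : F, et (bv F a) (bv F b) s ∈ M)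
    (hL : ∀ (a : Fin m ⊕ Fin m) (s : F), transv (bv F a) s ∈ M) (a : Fin m ⊕ Fin m) (S : Finset (Fin m ⊕ Fin m)) :
    ∀ v : Vec m F, v a ≠ 0 → (∀ b, b ∉ S → b ≠ a → b ≠ op a → v b = 0) →
      ∃ g ∈ M, rho m F g v = v a • bv F a := by
  classical
  have hsg := sg_ne (F := F) (op a)
  induction S using Finset.induction_on with
  | empty =>
    intro v hv h0
    refine ⟨transv (bv F (op a)) (v (op a) / (sg F (op a) * v a)), hL _ _, ?_⟩
    rw [rho_transv, form_bv', op_op]
    funext b
    simp only [Pi.add_apply, Pi.smul_apply, smul_eq_mul, bv_apply]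
    by_cases h1 : b = a
    · subst h1
      rw [if_neg (op_ne b), if_pos rfl]
      ring
    · by_cases h2 : b = op a
      · rw [if_pos h2, if_neg h1, h2]
        field_simp
        ring
      · rw [if_neg h2, if_neg h1, h0 b (Finset.notMem_empty _) h1 h2]
        ring
  | insert b S hb ih =>
    intro v hv h0
    by_cases h1 : b = a
    · refine ih v hv fun d hd h2 h3 => h0 d ?_ h2 h3
      rw [Finset.mem_insert, not_or]
      exact ⟨fun e => h2 (e.trans h1), hd⟩
    by_cases h2 : b = op a
    · refine ih v hv fun d hd h3 h4 => h0 d ?_ h3 h4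
      rw [Finset.mem_insert, not_or]
      exact ⟨fun e => h4 (e.trans h2), hd⟩
    have h3 : op a ≠ op b := fun e => h1 (by rw [← op_op b, ← e, op_op])
    set s := v b / (sg F (op a) * v a) with hs
    obtain ⟨v', hv'⟩ : ∃ v', v' = rho m F (et (bv F b) (bv F (op a)) s) v := ⟨_, rfl⟩
    have h4 : ∀ d, v' d = v d + (s * sympForm m F v (bv F b)) * (if d = op a then 1 else 0) +
        (s * -(sg F (op a) * v a)) * (if d = b then 1 else 0) := by
      intro d
      rw [hv', rho_et (form_bb h3), form_bv' (op a), op_op]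
      simp only [Pi.add_apply, Pi.smul_apply, smul_eq_mul, bv_apply]
    have h5 : v' a = v a := by
      rw [h4, if_neg (op_ne a), if_neg (Ne.symm h1)]
      ring
    obtain ⟨g, hg, hgv⟩ := ih v' (by rw [h5]; exact hv) (by
      intro d hd h6 h7
      rw [h4, if_neg h7]
      by_cases h8 : d = b
      · rw [if_pos h8, h8, hs]
        field_simp
        ring
      · rw [if_neg h8, h0 d (by rw [Finset.mem_insert, not_or]; exact ⟨h8, hd⟩) h6 h7]
        ring)
    refine ⟨g * et (bv F b) (bv F (op a)) s, M.mul_mem hg (hR _ _ h3 h2 _), ?_⟩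
    rw [map_mul, Equiv.Perm.mul_apply, ← hv', hgv, h5]

theorem transv_smul (v : Vec m F) (c s : F) : transv (c • v) s = transv v (c ^ 2 * s) := by
  apply rho_injective
  ext1 x
  rw [rho_transv, rho_transv, sympForm_smul_right]
  module

/-- **the root elements of the frame generate `Sp`** -/
theorem eq_top_of_roots (M : Subgroup (Matrix.symplecticGroup (Fin m) F))
    (hR : ∀ a b : Fin m ⊕ Fin m, b ≠ op a → a ≠ b → ∀ s : F, et (bv F a) (bv F b) s ∈ M)
    (hL : ∀ (a : Fin m ⊕ Fin m) (s : F), transv (bv F a) s ∈ M) : M = ⊤ := by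
  rw [eq_top_iff, ← Cfsg.Agent.S0765.result, Subgroup.closure_le]
  rintro A ⟨w, t, hA⟩
  have hA' : A = transv w t := Subtype.ext hA
  rw [hA']
  by_cases hw : ∃ a, w a ≠ 0
  · obtain ⟨a, ha⟩ := hw
    obtain ⟨g, hg, hgw⟩ := exists_move M hR hL a Finset.univ w ha (fun b hb => absurd (Finset.mem_univ b) hb)
    have h1 := conj_transv (g := rho m F g) one_ne_zero (isSemi_rho g) w t
    rw [hgw, ← map_mul, ← map_inv, ← map_mul, transv_smul] at h1
    have h2 := rho_injective h1
    have h3 : transv w t = g⁻¹ * (g * transv w t * g⁻¹) * g := by group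
    rw [SetLike.mem_coe, h3, h2]
    exact M.mul_mem (M.mul_mem (M.inv_mem hg) (hL _ _)) hg
  · push Not at hw
    have h1 : w = 0 := funext hw
    have h2 : transv w t = 1 := by
      apply rho_injective
      ext1 x
      rw [rho_transv, h1, map_one, smul_zero, add_zero, Equiv.Perm.one_apply]
    rw [SetLike.mem_coe, h2]
    exact M.one_mem

theorem range_le_of_roots (M : Subgroup (Equiv.Perm (Vec m F)))
    (hR : ∀ a b : Fin m ⊕ Fin m, b ≠ op a → a ≠ b → ∀ s : F, R F a b s ∈ M)
    (hL : ∀ (a : Fin m ⊕ Fin m) (s : F), L F a s ∈ M) : (rho m F).range ≤ M := by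
  have h1 : M.comap (rho m F) = ⊤ := eq_top_of_roots _ hR hL
  rintro _ ⟨A, rfl⟩
  have h2 : A ∈ M.comap (rho m F) := by rw [h1]; trivial
  exact h2

/-- in characteristic two one long root element suffices -/
theorem long_of_one (hm : 2 ≤ m) [Finite F] (h2 : (2 : F) = 0) (M : Subgroup (Equiv.Perm (Vec m F)))
    (hR : ∀ a b : Fin m ⊕ Fin m, b ≠ op a → a ≠ b → ∀ s : F, R F a b s ∈ M) (a₀ : Fin m ⊕ Fin m)
    (h0 : L F a₀ 1 ∈ M) (a : Fin m ⊕ Fin m) (s : F) : L F a s ∈ M := by
  have hch : CharP F 2 := CharTwo.of_one_ne_zero_of_two_eq_zero one_ne_zero h2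
  -- the step
  have step : ∀ a b : Fin m ⊕ Fin m, b ≠ op a → a ≠ b → L F a 1 ∈ M → ∀ s, L F b s ∈ M := by
    intro a b hb hab ha s
    obtain ⟨r, hr⟩ : ∃ r : F, r ^ 2 = s := by
      have hinj := frobenius_inj F 2
      have := Fact.mk Nat.prime_two
      obtain ⟨r, hr⟩ := (Finite.injective_iff_surjective.1 hinj) s
      exact ⟨r, hr⟩
    have hab' : b ≠ op (op a) := by rw [op_op]; exact Ne.symm hab
    have hg : R F (op a) b r ∈ M := hR _ _ hab' (Ne.symm hb) _
    -- conjugation
    have h3 := conj_transv (g := R F (op a) b r) one_ne_zero (isSemi_rho _) (bv F a) 1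
    have h4 : R F (op a) b r (bv F a) = bv F a + (r * sg F a) • bv F b := by
      rw [R_apply hab', form_bb hb, mul_zero, zero_smul, add_zero]
      have : sympForm m F (bv F a) (bv F (op a)) = sg F a := by
        have := form_bo (F := F) (op a)
        rwa [op_op] at this
      rw [this]
    rw [h4, RingEquiv.refl_apply, inv_one, mul_one] at h3
    have h5 : transv (bv F a + (r * sg F a) • bv F b) 1 =
        et (bv F a) ((r * sg F a) • bv F b) 1 * transv (bv F a) 1 * transv (bv F b) s := by
      have hsq : (r * sg F a) ^ 2 * 1 = s := by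
        rw [mul_one, mul_pow, hr]
        have : sg F a ^ 2 = 1 := by
          rcases a with i | i <;> simp [sg]
        rw [this, mul_one]
      have h6 : transv ((r * sg F a) • bv F b) (1 : F) = transv (bv F b) s := by rw [transv_smul, hsq]
      have h7 : ∀ v : Vec m F, transv v (-1 : F) * transv v (1 : F) = 1 := by
        intro v
        apply rho_injective
        ext1 x
        rw [map_mul, Equiv.Perm.mul_apply, rho_transv, rho_transv, map_one, Equiv.Perm.one_apply, sympForm_add_left,
          sympForm_smul_left, sympForm_self]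
        module
      have h8 : transv ((r * sg F a) • bv F b) (-1 : F) * transv (bv F a) (1 : F) =
          transv (bv F a) (1 : F) * transv ((r * sg F a) • bv F b) (-1 : F) := by
        have e1 : sympForm m F (bv F a) (bv F b) = 0 := form_bb hb
        have e2 : sympForm m F (bv F b) (bv F a) = 0 := by rw [sympForm_swap, e1, neg_zero]
        apply rho_injective
        ext1 x
        rw [map_mul, map_mul, Equiv.Perm.mul_apply, Equiv.Perm.mul_apply]
        simp only [rho_transv, sympForm_add_left, sympForm_smul_left, sympForm_smul_right, e1, e2, mul_zero, add_zero]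
        module
      rw [← h6, et, mul_assoc, mul_assoc, mul_assoc, ← mul_assoc (transv ((r * sg F a) • bv F b) (-1)), h8, mul_assoc,
        h7, mul_one, h7, mul_one]
    have h9 : R F (op a) b r * L F a 1 * (R F (op a) b r)⁻¹ ∈ M := M.mul_mem (M.mul_mem hg ha) (M.inv_mem hg)
    have h10 : R F (op a) b r * L F a 1 * (R F (op a) b r)⁻¹ = R F a b (r * sg F a) * L F a 1 * L F b s := by
      rw [L, h3, h5, map_mul, map_mul]
      congr 2
      have := et_smul (F := F) (form_bb hb) 1 (r * sg F a) 1
      rw [one_smul, one_mul, mul_one] at this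
      rw [this]
      rfl
    rw [h10] at h9
    have h11 := M.mul_mem (M.inv_mem (M.mul_mem (hR a b hb hab (r * sg F a)) ha)) h9
    rwa [inv_mul_cancel_left] at h11
  -- a third index
  obtain ⟨i, j, hij⟩ : ∃ i j : Fin m, i ≠ j := ⟨⟨0, by omega⟩, ⟨1, by omega⟩, by simp⟩
  have hex : ∀ a b : Fin m ⊕ Fin m, ∃ d : Fin m ⊕ Fin m, (b = a ∨ b = op a) → d ≠ op a ∧ a ≠ d ∧ d ≠ op b ∧ b ≠ d := by
    intro a b
    have h3 : ∀ k : Fin m, ∃ l : Fin m, l ≠ k := fun k => by
      by_cases h : k = i
      · exact ⟨j, by rw [h]; exact Ne.symm hij⟩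
      · exact ⟨i, Ne.symm h⟩
    rcases a with k | k
    · obtain ⟨l, hl⟩ := h3 k
      refine ⟨Sum.inl l, ?_⟩
      rintro (rfl | rfl) <;> simp [hl, Ne.symm hl]
    · obtain ⟨l, hl⟩ := h3 k
      refine ⟨Sum.inl l, ?_⟩
      rintro (rfl | rfl) <;> simp [hl, Ne.symm hl]
  by_cases h3 : a = a₀ ∨ a = op a₀
  · obtain ⟨d, hd⟩ := hex a₀ a
    obtain ⟨e1, e2, e3, e4⟩ := hd h3
    have h4 := step a₀ d e1 e2 h0 1
    refine step d a ?_ (Ne.symm e4) h4 s
    intro e
    exact e3 (by rw [e, op_op])
  · rw [not_or] at h3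
    exact step a₀ a h3.2 (Ne.symm h3.1) h0 s

end Cfsg.Agent.H97.DG
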