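import Cfsg.Agent.H97.DG.SpLift
import Cfsg.Agent.H230.GenPsl
import Cfsg.Agent.ClassicalGeometry.SympAutOddA
import Cfsg.Agent.ClassicalGeometry.SympAutExists
import Cfsg.Agent.S2411

/-!
# `Cos2` for the symplectic groups (S4180, C5 and C6)
-/

set_option autoImplicit false

namespace Cfsg.Agent.H97.DG

open Cfsg Cfsg.Agent.ClassicalGeometry.SympBasic Cfsg.Agent.ClassicalGeometry.SympAutSemi
open Cfsg.Agent.H891.Gen Cfsg.Agent.H891.DG Cfsg.Agent.H891.DG.Nielsen Cfsg.Agent.H230.GenPsl
open Cfsg.Agent.ClassicalGeometry.SympAutExists Cfsg.Agent.ClassicalGeometry.SympGamma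

section Semi

variable {F : Type*} [Field F] {m : ℕ}

theorem isSemi_one : IsSemi (1 : Equiv.Perm (Vec m F)) (RingEquiv.refl F) 1 := by
  have := isSemi_rho (1 : Matrix.symplecticGroup (Fin m) F)
  rwa [map_one] at this

/-- the field automorphism of a semisimilitude -/
noncomputable def fieldPart (F : Type*) [Field F] {m : ℕ} (hm : 1 ≤ m) : semiSim m F →* (F ≃+* F) where
  toFun g := g.2.choose
  map_one' := by
    obtain ⟨l, hl, h⟩ := (1 : semiSim m F).2.choose_spec
    exact (IsSemi.unique hm h isSemi_one).1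
  map_mul' g h := by
    obtain ⟨l, hl, h1⟩ := g.2.choose_spec
    obtain ⟨k, hk, h2⟩ := h.2.choose_spec
    obtain ⟨j, hj, h3⟩ := (g * h).2.choose_spec
    exact (IsSemi.unique hm h3 (h1.mul h2)).1

theorem fieldPart_spec (hm : 1 ≤ m) (g : semiSim m F) : ∃ l : Fˣ, IsSemi g.1 (fieldPart F hm g) (l : F) := by
  obtain ⟨l, hl, h⟩ := g.2.choose_spec
  exact ⟨Units.mk0 l hl, h⟩

/-- the isometries in the semisimilitudes -/
abbrev NS (m : ℕ) (F : Type*) [Field F] : Subgroup (semiSim m F) := (rho m F).range.subgroupOf (semiSim m F)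

theorem range_le : (rho m F).range ≤ semiSim m F := by
  rintro _ ⟨A, rfl⟩
  exact ⟨_, _, one_ne_zero, isSemi_rho A⟩

theorem NS_normal : (NS m F).Normal := by
  refine ⟨?_⟩
  rintro ⟨_, h⟩ ⟨A, rfl⟩ g
  obtain ⟨B, hB⟩ := exists_conj g A
  exact Subgroup.mem_subgroupOf.2 ⟨B, hB⟩

theorem lift_sub {x y : semiSim m F} (h : Lift (rho m F).range x.1 y.1) : Lift (NS m F) x y := by
  apply lift_of_map (semiSim m F).subtype (semiSim m F).subtype_injective
  rwa [Subgroup.subgroupOf_map_subtype, inf_eq_left.2 range_le]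

theorem Psi_rho (A : Matrix.symplecticGroup (Fin m) F) (h : rho m F A ∈ semiSim m F) :
    Psi m F ⟨rho m F A, h⟩ = MulAut.conj (QuotientGroup.mk A) := by
  apply MulEquiv.ext
  intro x
  obtain ⟨B, rfl⟩ := QuotientGroup.mk_surjective x
  rw [Psi_mk, MulAut.conj_apply, ← QuotientGroup.mk_inv, ← QuotientGroup.mk_mul, ← QuotientGroup.mk_mul]
  congr 1
  apply rho_injective
  rw [rho_conjHom, map_mul, map_mul, map_inv]

theorem map_NS : (NS m F).map (Psi m F) = (MulAut.conj : PSp m F →* MulAut (PSp m F)).range := by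
  apply le_antisymm
  · rintro _ ⟨⟨_, h⟩, ⟨A, rfl⟩, rfl⟩
    exact ⟨_, (Psi_rho A h).symm⟩
  · rintro _ ⟨x, rfl⟩
    obtain ⟨A, rfl⟩ := QuotientGroup.mk_surjective x
    exact ⟨⟨rho m F A, range_le ⟨A, rfl⟩⟩, ⟨A, rfl⟩, Psi_rho A _⟩

theorem exists_t {n : ℕ} {z μ : Fˣ} (hz : z ≠ 1) (h : z ≠ μ ∨ 1 ≤ n ∨ z ^ 2 ≠ 1) :
    ∃ t : Fin (n + 2) → Fˣ, t 0 = z * t 1 ∧ t 0 * t (Fin.last (n + 1)) ≠ μ := by
  have h10 : (1 : Fin (n + 2)) ≠ 0 := by simp
  have hl0 : Fin.last (n + 1) ≠ 0 := Fin.last_pos.ne'
  by_cases h1 : z = μ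
  · by_cases hn : n = 0
    · subst hn
      have hz2 : z ^ 2 ≠ 1 := by
        rcases h with h | h | h
        · exact absurd h1 h
        · omega
        · exact h
      refine ⟨fun i => if i = 0 then z * z else z, ?_, ?_⟩
      · beta_reduce
        rw [if_pos rfl, if_neg h10]
      · beta_reduce
        rw [if_pos rfl, if_neg hl0, ← h1]
        intro e
        apply hz2
        rw [pow_two]
        exact mul_eq_right.1 e
    · refine ⟨fun i => if i = 0 then z else if i = 1 then 1 else z, ?_, ?_⟩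
      · beta_reduce
        rw [if_pos rfl, if_neg h10, if_pos rfl, mul_one]
      · have hl1 : Fin.last (n + 1) ≠ 1 := by
          intro e
          have := congrArg Fin.val e
          simp at this
          omega
        beta_reduce
        rw [if_pos rfl, if_neg hl0, if_neg hl1, ← h1]
        intro e
        exact hz (mul_eq_right.1 e)
  · refine ⟨fun i => if i = 0 then z else 1, ?_, ?_⟩
    · beta_reduce
      rw [if_pos rfl, if_neg h10, mul_one]
    · beta_reduce
      rw [if_pos rfl, if_neg hl0, mul_one]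
      exact Ne.symm (Ne.symm h1)

/-- **the lift in the group of the semisimilitudes** -/
theorem lift_semiSim [Fintype F] (hm : 2 ≤ m) (hF : 3 ≤ Fintype.card F) (x y : semiSim m F) : Lift (NS m F) x y := by
  classical
  obtain ⟨n, rfl⟩ : ∃ n, m = n + 2 := ⟨m - 2, by omega⟩
  obtain ⟨z, hz⟩ := IsCyclic.exists_generator (α := Fˣ)
  have ho : orderOf z = Fintype.card F - 1 := by
    rw [← Nat.card_zpowers, (Subgroup.eq_top_iff' _).2 hz, Subgroup.card_top, Nat.card_eq_fintype_card,
      Fintype.card_units]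
  have hz1 : z ≠ 1 := by
    intro e
    rw [← orderOf_eq_one_iff] at e
    omega
  have hcy := isCyclic_ringAut F
  have hfin : Finite (F ≃+* F) := Finite.of_injective (fun f : F ≃+* F => (f : F → F)) DFunLike.coe_injective
  by_cases h2 : (2 : F) = 0
  · refine lift_of_ker NS_normal (fieldPart F (by omega)) (fun x y hx => ?_) x y
    obtain ⟨μ, hμ⟩ := fieldPart_spec (by omega) x
    obtain ⟨μ', hμ'⟩ := fieldPart_spec (by omega) y
    rw [hx] at hμ
    exact lift_sub (lift_even hz hz1 h2 hμ hμ')
  · by_cases h5 : 1 ≤ n ∨ z ^ 2 ≠ 1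
    · refine lift_of_ker NS_normal (fieldPart F (by omega)) (fun x y hx => ?_) x y
      obtain ⟨μ, hμ⟩ := fieldPart_spec (by omega) x
      obtain ⟨μ', hμ'⟩ := fieldPart_spec (by omega) y
      rw [hx] at hμ
      obtain ⟨t, h0, h1⟩ := exists_t (n := n) (μ := μ) hz1 (Or.inr h5)
      exact lift_sub (lift_odd hz hz1 h0 h1 h2 hμ hμ')
    · -- `q = 3`
      have hz2 : z ^ 2 = 1 := by
        by_contra h
        exact h5 (Or.inr h)
      have h3 : Fintype.card F = 3 := by
        have := orderOf_le_of_pow_eq_one (by norm_num) hz2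
        omega
      have hφ : ∀ φ : F ≃+* F, φ = RingEquiv.refl F := by
        intro φ
        have hS : ({0, 1, -1} : Finset F) = Finset.univ := by
          rw [← Finset.card_eq_iff_eq_univ, h3]
          refine Finset.card_eq_three.2 ⟨0, 1, -1, zero_ne_one, ?_, ?_, rfl⟩
          · intro e
            exact one_ne_zero (neg_eq_zero.1 e.symm)
          · intro e
            apply h2
            rw [← one_add_one_eq_two]
            nth_rewrite 2 [e]
            exact add_neg_cancel 1
        ext a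
        have ha : a ∈ ({0, 1, -1} : Finset F) := by rw [hS]; exact Finset.mem_univ a
        simp only [Finset.mem_insert, Finset.mem_singleton] at ha
        rcases ha with rfl | rfl | rfl
        · simp
        · simp
        · simp
      have key : ∀ x y : semiSim (n + 2) F, IsSemi x.1 (RingEquiv.refl F) 1 → Lift (NS (n + 2) F) x y := by
        intro x y hx
        obtain ⟨μ', hμ'⟩ := fieldPart_spec (by omega) y
        obtain ⟨t, h0, h1⟩ := exists_t (n := n) (μ := 1) hz1 (Or.inl hz1)
        refine lift_sub (lift_odd hz hz1 h0 h1 h2 (by rw [Units.val_one]; exact hx) hμ')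
      have hmu : ∀ μ : Fˣ, μ = 1 ∨ μ = z := by
        intro μ
        have h4 := mem_powers_iff_mem_zpowers.2 (hz μ)
        obtain ⟨k, hk⟩ := h4
        rcases Nat.even_or_odd' k with ⟨l, hl | hl⟩
        · left
          rw [← hk]
          show z ^ k = 1
          rw [hl, pow_mul, hz2, one_pow]
        · right
          rw [← hk]
          show z ^ k = z
          rw [hl, pow_succ, pow_mul, hz2, one_pow, one_mul]
      obtain ⟨μ, hμ⟩ := fieldPart_spec (by omega) x
      obtain ⟨μ', hμ'⟩ := fieldPart_spec (by omega) y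
      rw [hφ (fieldPart _ _ _)] at hμ hμ'
      rcases hmu μ with h8 | h8
      · rw [h8, Units.val_one] at hμ
        exact key x y hμ
      · rcases hmu μ' with h9 | h9
        · rw [h9, Units.val_one] at hμ'
          exact (key y x hμ').symm
        · have h4 : Lift (NS (n + 2) F) x (x⁻¹ * y) := by
            refine (key _ _ ?_).symm
            rw [h8] at hμ
            rw [h9] at hμ'
            have h6 := (hμ.inv z.ne_zero).mul hμ'
            have e2 : (RingEquiv.refl F).symm (z : F)⁻¹ * (RingEquiv.refl F).symm (z : F) = 1 :=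
              inv_mul_cancel₀ z.ne_zero
            rw [e2] at h6
            exact h6
          have h6 := Lift.mul_left NS_normal h4
          rwa [mul_inv_cancel_left] at h6

end Semi

section Cos

universe u v

theorem map_conj_range {T : Type u} {T' : Type v} [Group T] [Group T'] (e : T ≃* T') :
    (MulAut.conj : T →* MulAut T).range.map (MulAut.congr e).toMonoidHom = (MulAut.conj : T' →* MulAut T').range := by
  have key : ∀ t : T, (MulAut.congr e).toMonoidHom (MulAut.conj t) = MulAut.conj (e t) := by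
    intro t
    apply MulEquiv.ext
    intro x
    show e (MulAut.conj t (e.symm x)) = _
    rw [MulAut.conj_apply, MulAut.conj_apply, map_mul, map_mul, map_inv, MulEquiv.apply_symm_apply]
  apply le_antisymm
  · rintro _ ⟨_, ⟨t, rfl⟩, rfl⟩
    exact ⟨e t, (key t).symm⟩
  · rintro _ ⟨t, rfl⟩
    refine ⟨MulAut.conj (e.symm t), ⟨_, rfl⟩, ?_⟩
    rw [key, MulEquiv.apply_symm_apply]

/-- `Cos2` is invariant under isomorphisms. -/
theorem cos2_congr {T : Type u} {T' : Type v} [Group T] [Group T'] (e : T ≃* T') (h : Cos2 T') : Cos2 T := by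
  intro x y
  apply lift_of_map (MulAut.congr e).toMonoidHom (MulAut.congr e).injective
  rw [map_conj_range]
  exact h _ _

variable {F : Type u} [Field F] {m : ℕ}

theorem exists_Psi [Finite F] (hm : 2 ≤ m) (h : 3 ≤ m ∨ (2 : F) ≠ 0) (α : MulAut (PSp m F)) :
    ∃ g : semiSim m F, Psi m F g = α :=
  exists_semi hm α (Cfsg.Agent.ClassicalGeometry.SympAutOddA.recog hm h α)

theorem lift_Psi [Fintype F] (hm : 2 ≤ m) (hF : 3 ≤ Fintype.card F) (x y : semiSim m F) :
    Lift (MulAut.conj : PSp m F →* MulAut (PSp m F)).range (Psi m F x) (Psi m F y) := by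
  have h := lift_map (Psi m F) (lift_semiSim hm hF x y)
  rwa [map_NS] at h

/-- `q = 2` -/
theorem inner_of_two [Fintype F] (hm : 1 ≤ m) (hF : Fintype.card F = 2) (g : semiSim m F) :
    Psi m F g ∈ (MulAut.conj : PSp m F →* MulAut (PSp m F)).range := by
  classical
  obtain ⟨μ, hμ⟩ := fieldPart_spec hm g
  have hS : ({0, 1} : Finset F) = Finset.univ := by
    rw [← Finset.card_eq_iff_eq_univ, hF]
    exact Finset.card_pair zero_ne_one
  have hel : ∀ a : F, a = 0 ∨ a = 1 := by
    intro a
    have ha : a ∈ ({0, 1} : Finset F) := by rw [hS]; exact Finset.mem_univ a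
    simpa using ha
  have h1 : fieldPart F hm g = RingEquiv.refl F := by
    ext a
    rcases hel a with rfl | rfl
    · simp
    · simp
  have h2 : (μ : F) = 1 := (hel μ).resolve_left μ.ne_zero
  rw [h1, h2] at hμ
  rw [← map_NS]
  exact ⟨g, Subgroup.mem_subgroupOf.2 (mem_range hμ), rfl⟩

/-- **`Cos2` for `PSp_2m(q)`, unless `m = 2` and `q` is even** -/
theorem cos2_psp [Fintype F] (hm : 2 ≤ m) (h : 3 ≤ m ∨ (2 : F) ≠ 0) : Cos2 (PSp m F) := by
  intro x y
  obtain ⟨g, rfl⟩ := exists_Psi hm h x
  obtain ⟨k, rfl⟩ := exists_Psi hm h y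
  by_cases hF : 3 ≤ Fintype.card F
  · exact lift_Psi hm hF g k
  · have h1 : 1 < Fintype.card F := Fintype.one_lt_card
    have hF2 : Fintype.card F = 2 := by omega
    have hm3 : 3 ≤ m := by
      rcases h with h | h
      · exact h
      · exfalso
        apply h
        have := FiniteField.cast_card_eq_zero F
        rw [hF2] at this
        exact_mod_cast this
    have h2 := Cfsg.Agent.S2411.result (F := F) m hm (fun h => by omega)
    refine Lift.congr (x := 1) (y := 1) ?_ ?_ (lift_one h2)
    · rw [mul_one]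
      exact inv_mem (inner_of_two (by omega) hF2 g)
    · rw [mul_one]
      exact inv_mem (inner_of_two (by omega) hF2 k)

/-- **C5 and C6 of S4180**: the row `psp` for `Cos2`, unless `m = 2` and `q` is even -/
theorem psp_row (T : Type u) [Group T] (F : Type) [Field F] [Fintype F] (m : ℕ) (hm : 2 ≤ m)
    (h : 3 ≤ m ∨ (2 : F) ≠ 0) (e : Nonempty (T ≃* Cfsg.PSp m F)) : Cos2 T := by
  obtain ⟨e⟩ := e
  exact cos2_congr e (cos2_psp hm h)

/-- C7, the part without graph automorphisms -/
theorem lift_psp_four [Fintype F] (hF : 3 ≤ Fintype.card F) {x y : MulAut (PSp 2 F)} (hx : x ∈ (Psi 2 F).range)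
    (hy : y ∈ (Psi 2 F).range) : Lift (MulAut.conj : PSp 2 F →* MulAut (PSp 2 F)).range x y := by
  obtain ⟨g, rfl⟩ := hx
  obtain ⟨k, rfl⟩ := hy
  exact lift_Psi le_rfl hF g k

end Cos

end Cfsg.Agent.H97.DG
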