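import Cfsg.Agent.H97.DG.SpClo
import Cfsg.Agent.H136.TwoGen
import Cfsg.Agent.H136.FieldLem

/-!
# The torus trick for the symplectic groups (S4180, rows `PSp`)
-/

set_option autoImplicit false

namespace Cfsg.Agent.H97.DG

open Cfsg Cfsg.Agent.ClassicalGeometry.SympBasic Cfsg.Agent.ClassicalGeometry.SympAutSemi

variable {F : Type*} [Field F] {n : ℕ}

/-- the Coxeter element -/
def cox (n : ℕ) : Equiv.Perm (Fin (n + 2) ⊕ Fin (n + 2)) where
  toFun := Sum.elim (fun i => if h : i.1 + 1 < n + 2 then Sum.inl ⟨i.1 + 1, h⟩ else Sum.inr 0)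
    (fun i => if h : i.1 + 1 < n + 2 then Sum.inr ⟨i.1 + 1, h⟩ else Sum.inl 0)
  invFun := Sum.elim (fun i => if i.1 = 0 then Sum.inr (Fin.last (n + 1)) else Sum.inl ⟨i.1 - 1, by omega⟩)
    (fun i => if i.1 = 0 then Sum.inl (Fin.last (n + 1)) else Sum.inr ⟨i.1 - 1, by omega⟩)
  left_inv := by
    rintro (i | i)
    · simp only [Sum.elim_inl]
      split_ifs with h
      · simp
      · have h1 : i = Fin.last (n + 1) := Fin.ext (by simp; omega)
        simp [h1]
    · simp only [Sum.elim_inr]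
      split_ifs with h
      · simp
      · have h1 : i = Fin.last (n + 1) := Fin.ext (by simp; omega)
        simp [h1]
  right_inv := by
    rintro (i | i)
    · simp only [Sum.elim_inl]
      split_ifs with h
      · have h1 : i = 0 := Fin.ext h
        simp [h1]
      · have h1 : i.1 - 1 + 1 < n + 2 := by omega
        have h2 : i.1 - 1 + 1 = i.1 := by omega
        simp only [Sum.elim_inl, h2, dif_pos i.2]
    · simp only [Sum.elim_inr]
      split_ifs with h
      · have h1 : i = 0 := Fin.ext h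
        simp [h1]
      · have h1 : i.1 - 1 + 1 < n + 2 := by omega
        have h2 : i.1 - 1 + 1 = i.1 := by omega
        simp only [Sum.elim_inr, h2, dif_pos i.2]

theorem cox_inl_lt {i : ℕ} (h : i + 1 < n + 2) :
    cox n (Sum.inl ⟨i, by omega⟩) = Sum.inl ⟨i + 1, h⟩ := by
  show dite _ _ _ = _
  rw [dif_pos h]

theorem cox_inr_lt {i : ℕ} (h : i + 1 < n + 2) :
    cox n (Sum.inr ⟨i, by omega⟩) = Sum.inr ⟨i + 1, h⟩ := by
  show dite _ _ _ = _
  rw [dif_pos h]

theorem cox_inl_last : cox n (Sum.inl (Fin.last (n + 1))) = Sum.inr 0 := by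
  show dite _ _ _ = _
  rw [dif_neg (by simp)]

theorem cox_inr_last : cox n (Sum.inr (Fin.last (n + 1))) = Sum.inl 0 := by
  show dite _ _ _ = _
  rw [dif_neg (by simp)]

theorem cox_op (a : Fin (n + 2) ⊕ Fin (n + 2)) : cox n (op a) = op (cox n a) := by
  rcases a with i | i
  · by_cases h : i.1 + 1 < n + 2
    · have h1 := cox_inl_lt h
      have h2 := cox_inr_lt h
      show cox n (Sum.inr i) = op (cox n (Sum.inl i))
      rw [show i = ⟨i.1, by omega⟩ from rfl, h1, h2]
      rfl
    · have h1 : i = Fin.last (n + 1) := Fin.ext (by simp; omega)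
      show cox n (Sum.inr i) = op (cox n (Sum.inl i))
      rw [h1, cox_inl_last, cox_inr_last]
      rfl
  · by_cases h : i.1 + 1 < n + 2
    · have h1 := cox_inl_lt h
      have h2 := cox_inr_lt h
      show cox n (Sum.inl i) = op (cox n (Sum.inr i))
      rw [show i = ⟨i.1, by omega⟩ from rfl, h1, h2]
      rfl
    · have h1 : i = Fin.last (n + 1) := Fin.ext (by simp; omega)
      show cox n (Sum.inl i) = op (cox n (Sum.inr i))
      rw [h1, cox_inl_last, cox_inr_last]
      rfl

/-- the sequence of the indices -/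
def E (n k : ℕ) : Fin (n + 2) ⊕ Fin (n + 2) := (cox n ^ k) (Sum.inl 0)

theorem E_add (k j : ℕ) : E n (k + j) = (cox n ^ k) (E n j) := by
  rw [E, pow_add, Equiv.Perm.mul_apply]; rfl

theorem E_succ (k : ℕ) : E n (k + 1) = cox n (E n k) := by
  show (cox n ^ (k + 1)) (Sum.inl 0) = cox n ((cox n ^ k) (Sum.inl 0))
  rw [pow_succ', Equiv.Perm.mul_apply]

theorem E_lt {j : ℕ} (h : j < n + 2) : E n j = Sum.inl ⟨j, h⟩ := by
  induction j with
  | zero => rfl
  | succ j ih => rw [E_succ, ih (by omega), cox_inl_lt h]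

theorem E_ge {j : ℕ} (h : j < n + 2) : E n (n + 2 + j) = Sum.inr ⟨j, h⟩ := by
  induction j with
  | zero =>
    have h1 : E n (n + 1 + 1) = cox n (E n (n + 1)) := E_succ (n + 1)
    rw [E_lt (j := n + 1) (by omega)] at h1
    exact h1.trans cox_inl_last
  | succ j ih => rw [← add_assoc, E_succ, ih (by omega), cox_inr_lt h]

theorem E_two : E n (n + 2 + (n + 2)) = E n 0 := by
  have h1 : E n (n + 2 + (n + 1) + 1) = cox n (E n (n + 2 + (n + 1))) := E_succ _
  rw [E_ge (j := n + 1) (by omega)] at h1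
  exact h1.trans cox_inr_last

theorem E_period (k : ℕ) : E n (k + (n + 2 + (n + 2))) = E n k := by
  rw [E_add, E_two, ← E_add, add_zero]

theorem op_E (k : ℕ) : op (E n k) = E n (k + (n + 2)) := by
  have h0 : E n (n + 2) = Sum.inr 0 := E_ge (j := 0) (by omega)
  rw [E_add, h0]
  have h : ∀ (k : ℕ) (a : Fin (n + 2) ⊕ Fin (n + 2)), (cox n ^ k) (op a) = op ((cox n ^ k) a) := by
    intro k
    induction k with
    | zero => intro a; rfl
    | succ k ih => intro a; rw [pow_succ, Equiv.Perm.mul_apply, Equiv.Perm.mul_apply, cox_op, ih]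
  exact (h k (Sum.inl 0)).symm

theorem E_inj {i j : ℕ} (hi : i < n + 2 + (n + 2)) (hj : j < n + 2 + (n + 2)) (h : E n i = E n j) : i = j := by
  by_cases h1 : i < n + 2
  · by_cases h2 : j < n + 2
    · rw [E_lt h1, E_lt h2] at h
      simpa using h
    · obtain ⟨j', rfl⟩ : ∃ j', j = n + 2 + j' := ⟨j - (n + 2), by omega⟩
      rw [E_lt h1, E_ge (by omega)] at h
      exact absurd h (by simp)
  · obtain ⟨i', rfl⟩ : ∃ i', i = n + 2 + i' := ⟨i - (n + 2), by omega⟩
    by_cases h2 : j < n + 2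
    · rw [E_lt h2, E_ge (by omega)] at h
      exact absurd h (by simp)
    · obtain ⟨j', rfl⟩ : ∃ j', j = n + 2 + j' := ⟨j - (n + 2), by omega⟩
      rw [E_ge (by omega), E_ge (by omega)] at h
      have h3 : i' = j' := by simpa using h
      rw [h3]

theorem E_ne {k i j : ℕ} (hi : i < n + 2 + (n + 2)) (hj : j < n + 2 + (n + 2)) (h : i ≠ j) :
    E n (k + i) ≠ E n (k + j) := by
  rw [E_add, E_add]
  exact fun e => h (E_inj hi hj ((cox n ^ k).injective e))

theorem E_surj (a : Fin (n + 2) ⊕ Fin (n + 2)) : ∃ i < n + 2 + (n + 2), E n i = a := by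
  rcases a with i | i
  · exact ⟨i.1, by omega, E_lt i.2⟩
  · exact ⟨n + 2 + i.1, by omega, E_ge i.2⟩

/-- the induction -/
theorem R_ind (M : Subgroup (Equiv.Perm (Vec (n + 2) F)))
    (hX : ∀ k s, R F (E n k) (E n (k + (n + 2 + 1))) s ∈ M) (r : ℕ) (hr : r < n + 2) (k : ℕ) (s : F) :
    R F (E n k) (E n (k + (n + 2 + (r + 1)))) s ∈ M := by
  induction r generalizing k s with
  | zero => exact hX k s
  | succ r ih =>
    have h1 : op (E n (k + (n + 2 + (r + 1)))) = E n (k + (r + 1)) := by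
      rw [op_E, show k + (n + 2 + (r + 1)) + (n + 2) = k + (r + 1) + (n + 2 + (n + 2)) by omega, E_period]
    have h2 := hX (k + (r + 1))
    rw [← h1, show k + (r + 1) + (n + 2 + 1) = k + (n + 2 + (r + 1 + 1)) by omega] at h2
    have h0 : E n k = E n (k + 0) := rfl
    have hd : ∀ j, j < n + 2 + (n + 2) → j ≠ 0 → j ≠ n + 2 + (r + 1 + 1) →
        E n (k + (n + 2 + (r + 1 + 1))) ≠ E n (k + j) := by
      intro j hj hj0 hj1
      by_cases h3 : n + 2 + (r + 1 + 1) = n + 2 + (n + 2)
      · rw [h3, E_period, h0]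
        exact E_ne (by omega) hj (Ne.symm hj0)
      · exact E_ne (by omega) hj (Ne.symm hj1)
    refine R_mem (b := E n (k + (n + 2 + (r + 1)))) ?_ ?_ ?_ ?_ ?_ (ih (by omega) k) h2 s
    · rw [op_E]
      exact E_ne (by omega) (by omega) (by omega)
    · rw [h0]
      exact E_ne (by omega) (by omega) (by omega)
    · rw [h1]
      exact hd _ (by omega) (by omega) (by omega)
    · exact hd _ (by omega) (by omega) (by omega)
    · rw [op_E]
      exact hd _ (by omega) (by omega) (by omega)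

theorem R_all (M : Subgroup (Equiv.Perm (Vec (n + 2) F)))
    (hX : ∀ k s, R F (E n k) (E n (k + (n + 2 + 1))) s ∈ M) {a b : Fin (n + 2) ⊕ Fin (n + 2)} (h1 : b ≠ op a)
    (h2 : a ≠ b) (s : F) : R F a b s ∈ M := by
  obtain ⟨i, hi, rfl⟩ := E_surj a
  obtain ⟨j, hj, rfl⟩ := E_surj b
  have key : ∀ i j : ℕ, i < j → j < n + 2 + (n + 2) → E n j ≠ op (E n i) → ∀ s, R F (E n i) (E n j) s ∈ M := by
    intro i j hij hj hne s
    have hne' : j ≠ i + (n + 2) := by
      rintro rfl
      exact hne (op_E i).symm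
    rcases Nat.lt_or_ge (i + (n + 2)) j with h3 | h3
    · have h4 := R_ind M hX (j - i - (n + 2) - 1) (by omega) i s
      rwa [show i + (n + 2 + (j - i - (n + 2) - 1 + 1)) = j by omega] at h4
    · have h4 := R_ind M hX (n + 2 - (j - i) - 1) (by omega) j s
      rw [show j + (n + 2 + (n + 2 - (j - i) - 1 + 1)) = i + (n + 2 + (n + 2)) by omega, E_period] at h4
      rw [R_comm hne]
      exact h4
  rcases lt_trichotomy i j with h | h | h
  · exact key i j h hj h1 s
  · exact absurd (by rw [h]) h2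
  · rw [R_comm h1]
    refine key j i h hi ?_ s
    intro e
    exact h1 (by rw [e, op_op])

theorem L_all (M : Subgroup (Equiv.Perm (Vec (n + 2) F)))
    (hX : ∀ k s, R F (E n k) (E n (k + (n + 2 + 1))) s ∈ M) (h2 : (2 : F) ≠ 0) (a : Fin (n + 2) ⊕ Fin (n + 2)) (s : F) :
    L F a s ∈ M := by
  obtain ⟨i, hi, rfl⟩ := E_surj a
  have h := R_ind M hX (n + 1) (by omega) i (2⁻¹ * s)
  rw [show i + (n + 2 + (n + 1 + 1)) = i + (n + 2 + (n + 2)) by omega, E_period, R_self, ← mul_assoc,
    mul_inv_cancel₀ h2, one_mul] at h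
  exact h

end Cfsg.Agent.H97.DG
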