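import Cfsg.Agent.H97.DG.SpCox
import Cfsg.Agent.H891.DG.Nielsen

/-!
# Lifts for the symplectic groups (S4180, rows `PSp`)
-/

set_option autoImplicit false

namespace Cfsg.Agent.H97.DG

open Cfsg Cfsg.Agent.ClassicalGeometry.SympBasic Cfsg.Agent.ClassicalGeometry.SympAutSemi
open Cfsg.Agent.H891.Gen

section Torus

variable {F : Type*} [Field F] {m n : ℕ}

theorem mono_diag (π : Equiv.Perm (Fin m ⊕ Fin m)) (c t : Fin m ⊕ Fin m → Fˣ) (σ : F ≃+* F) :
    mono π c σ * mono (Equiv.refl _) t (RingEquiv.refl F) * (mono π c σ)⁻¹ =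
      mono (Equiv.refl _) (fun a => Units.map (σ : F →* F) (t (π.symm a))) (RingEquiv.refl F) := by
  rw [mul_inv_eq_iff_eq_mul]
  ext1 v
  funext a
  rw [Equiv.Perm.mul_apply, Equiv.Perm.mul_apply, mono_apply, mono_apply, mono_apply, mono_apply]
  simp only [Equiv.refl_symm, Equiv.refl_apply, RingEquiv.refl_apply, map_mul]
  show _ = σ _ * _
  ring

theorem diag_comm (t t' : Fin m ⊕ Fin m → Fˣ) :
    mono (Equiv.refl _) t (RingEquiv.refl F) * mono (Equiv.refl _) t' (RingEquiv.refl F) =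
      mono (Equiv.refl _) t' (RingEquiv.refl F) * mono (Equiv.refl _) t (RingEquiv.refl F) := by
  ext1 v
  funext a
  rw [Equiv.Perm.mul_apply, Equiv.Perm.mul_apply, mono_apply, mono_apply, mono_apply, mono_apply]
  simp only [Equiv.refl_symm, Equiv.refl_apply, RingEquiv.refl_apply]
  ring

theorem diag_pow (t : Fin m ⊕ Fin m → Fˣ) (k : ℕ) :
    mono (Equiv.refl _) t (RingEquiv.refl F) ^ k = mono (Equiv.refl _) (t ^ k) (RingEquiv.refl F) := by
  induction k with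
  | zero =>
    ext1 v
    funext a
    rw [mono_apply, pow_zero, pow_zero]
    simp
  | succ k ih =>
    rw [pow_succ, ih]
    ext1 v
    funext a
    rw [Equiv.Perm.mul_apply, mono_apply, mono_apply, mono_apply, pow_succ]
    simp only [Equiv.refl_symm, Equiv.refl_apply, RingEquiv.refl_apply, Pi.mul_apply, Units.val_mul]
    ring

/-- the torus coefficients -/
def tt (μ : Fˣ) (t : Fin m → Fˣ) : Fin m ⊕ Fin m → Fˣ := Sum.elim t (fun i => μ * (t i)⁻¹)

theorem tt_inl (μ : Fˣ) (t : Fin m → Fˣ) (i : Fin m) : tt μ t (Sum.inl i) = t i := rfl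

theorem tt_inr (μ : Fˣ) (t : Fin m → Fˣ) (i : Fin m) : tt μ t (Sum.inr i) = μ * (t i)⁻¹ := rfl

/-- the torus element -/
def tor (μ : Fˣ) (t : Fin m → Fˣ) : Equiv.Perm (Vec m F) := mono (Equiv.refl _) (tt μ t) (RingEquiv.refl F)

theorem isSemi_tor (μ : Fˣ) (t : Fin m → Fˣ) : IsSemi (tor μ t) (RingEquiv.refl F) (μ : F) := by
  refine isSemi_mono (fun a => rfl) ?_
  rintro (i | i)
  · show (t i : F) * ((μ * (t i)⁻¹ : Fˣ) : F) * _ = _
    rw [← Units.val_mul, mul_comm (t i), inv_mul_cancel_right]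
    rfl
  · show ((μ * (t i)⁻¹ : Fˣ) : F) * (t i : F) * _ = _
    rw [← Units.val_mul, inv_mul_cancel_right]
    rfl

/-- the coefficients of the Coxeter element -/
def cc (n : ℕ) (μ : Fˣ) : Fin (n + 2) ⊕ Fin (n + 2) → Fˣ :=
  Sum.elim (fun _ => 1) (fun i => if i = Fin.last (n + 1) then -μ else μ)

/-- the Coxeter element -/
def wcox (n : ℕ) (μ : Fˣ) (σ : F ≃+* F) : Equiv.Perm (Vec (n + 2) F) := mono (cox n) (cc n μ) σ

theorem isSemi_wcox (μ : Fˣ) (σ : F ≃+* F) : IsSemi (wcox n μ σ) σ (μ : F) := by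
  refine isSemi_mono cox_op ?_
  have h1 : ∀ i : Fin (n + 2), (cc n μ (Sum.inl i) : F) * cc n μ (Sum.inr i) * sg F (cox n (Sum.inl i)) =
      μ * sg F (Sum.inl i) := by
    intro i
    by_cases hi : i = Fin.last (n + 1)
    · subst hi
      rw [cox_inl_last]
      simp [cc, sg]
    · have h2 : i.1 + 1 < n + 2 := by
        have := i.2
        have h3 : i.1 ≠ n + 1 := fun e => hi (Fin.ext e)
        omega
      have h3 := cox_inl_lt h2
      rw [show i = ⟨i.1, by omega⟩ from rfl, h3]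
      simp [cc, sg, hi]
  rintro (i | i)
  · exact h1 i
  · have h2 := h1 i
    have h3 : sg F (cox n (Sum.inr i)) = - sg F (cox n (Sum.inl i)) := by
      have := cox_op (Sum.inl i : Fin (n + 2) ⊕ Fin (n + 2))
      rw [show (Sum.inr i : Fin (n + 2) ⊕ Fin (n + 2)) = op (Sum.inl i) from rfl, this, sg_op]
    have h4 : sg F (Sum.inr i : Fin (n + 2) ⊕ Fin (n + 2)) = - sg F (Sum.inl i : Fin (n + 2) ⊕ Fin (n + 2)) := by
      rw [← sg_op]
      rfl
    show (cc n μ (Sum.inr i) : F) * cc n μ (Sum.inl i) * sg F (cox n (Sum.inr i)) = _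
    rw [h3, h4]
    linear_combination -h2

theorem E_zero : E n 0 = Sum.inl 0 := rfl

theorem one_def : (1 : Fin (n + 2)) = ⟨1, by omega⟩ := rfl

theorem E_three : E n (n + 2 + 1) = Sum.inr 1 := E_ge (j := 1) (by omega)

/-- the root group `X₀` -/
def X (F : Type*) [Field F] (n : ℕ) : Subgroup (Equiv.Perm (Vec (n + 2) F)) where
  carrier := {g | ∃ s : F, g = R F (Sum.inl 0) (Sum.inr 1) s}
  mul_mem' := by
    rintro _ _ ⟨s, rfl⟩ ⟨t, rfl⟩
    exact ⟨s + t, R_mul (by simp) s t⟩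
  one_mem' := ⟨0, (R_zero (by simp)).symm⟩
  inv_mem' := by
    rintro _ ⟨s, rfl⟩
    exact ⟨-s, R_inv (by simp) s⟩

theorem R_inj {a b : Fin m ⊕ Fin m} (h : b ≠ op a) (hab : a ≠ b) {s t : F} (e : R F a b s = R F a b t) : s = t := by
  have h1 := congrFun (DFunLike.congr_fun e (bv F (op a))) b
  rw [R_apply h, R_apply h] at h1
  have h2 : sympForm m F (bv F (op a)) (bv F b) = 0 := form_bb (by rw [op_op]; exact Ne.symm hab)
  rw [form_bo, h2] at h1
  simp only [Pi.add_apply, Pi.smul_apply, smul_eq_mul, bv_apply, if_pos, mul_one, mul_zero, zero_mul, add_zero] at h1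
  have h3 := add_left_cancel h1
  exact mul_right_cancel₀ (sg_ne _) h3

theorem tor_R (μ : Fˣ) (t : Fin (n + 2) → Fˣ) (s : F) :
    tor μ t * R F (Sum.inl 0) (Sum.inr 1) s * (tor μ t)⁻¹ =
      R F (Sum.inl 0) (Sum.inr 1) ((t 0 : F) * ((t 1)⁻¹ : Fˣ) * s) := by
  have h := mono_R (F := F) (m := n + 2) (π := Equiv.refl _) (c := tt μ t) (σ := RingEquiv.refl F) (l := (μ : F)) μ.ne_zero
    (fun a => rfl) (isSemi_tor μ t) (a := Sum.inl 0) (b := Sum.inr 1) (by simp) s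
  rw [tor, h]
  congr 1
  rw [tt_inl, tt_inr, RingEquiv.refl_apply, Units.val_mul]
  field_simp

theorem tor_R' (μ : Fˣ) (t : Fin (n + 2) → Fˣ) (s : F) :
    (tor μ t)⁻¹ * R F (Sum.inl 0) (Sum.inr 1) s * tor μ t =
      R F (Sum.inl 0) (Sum.inr 1) ((t 1 : F) * ((t 0)⁻¹ : Fˣ) * s) := by
  rw [← mul_right_inj (tor μ t), ← mul_left_inj (tor μ t)⁻¹, tor_R]
  have e : tor μ t * ((tor μ t)⁻¹ * R F (Sum.inl 0) (Sum.inr 1) s * tor μ t) * (tor μ t)⁻¹ =
    R F (Sum.inl 0) (Sum.inr 1) s := by group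
  rw [e]
  congr 1
  have h1 : (t 0 : F) * ((t 0)⁻¹ : Fˣ) = 1 := Units.mul_inv _
  have h2 : (t 1 : F) * ((t 1)⁻¹ : Fˣ) = 1 := Units.mul_inv _
  linear_combination (-s * (t 1 : F) * ((t 1)⁻¹ : Fˣ)) * h1 - s * h2


/-- the Coxeter conjugate of a torus element -/
theorem wcox_tor (μ μ' : Fˣ) (t : Fin (n + 2) → Fˣ) (σ : F ≃+* F) :
    ∃ t' : Fin (n + 2) → Fˣ, wcox n μ' σ * tor μ t * (wcox n μ' σ)⁻¹ = tor (Units.map (σ : F →* F) μ) t' ∧
      (t' 0 = t' 1 → t 0 * t (Fin.last (n + 1)) = μ) := by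
  have hs1 : (cox n).symm (Sum.inl 0) = Sum.inr (Fin.last (n + 1)) := by
    rw [Equiv.symm_apply_eq, cox_inr_last]
  have hs2 : (cox n).symm (Sum.inl 1) = Sum.inl 0 := by
    rw [Equiv.symm_apply_eq]
    exact (cox_inl_lt (i := 0) (by omega)).symm
  refine ⟨fun i => Units.map (σ : F →* F) (tt μ t ((cox n).symm (Sum.inl i))), ?_, ?_⟩
  · rw [wcox, tor, mono_diag, tor]
    congr 1
    funext a
    rcases a with i | i
    · rfl
    · rw [tt_inr, ← map_inv, ← map_mul]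
      congr 1
      have h1 : (cox n).symm (Sum.inr i) = op ((cox n).symm (Sum.inl i)) := by
        rw [Equiv.symm_apply_eq, cox_op, Equiv.apply_symm_apply]
        rfl
      rw [h1]
      rcases (cox n).symm (Sum.inl i) with j | j
      · show tt μ t (Sum.inr j) = _
        rw [tt_inr, tt_inl]
      · show tt μ t (Sum.inl j) = _
        rw [tt_inr, tt_inl, mul_inv_rev, inv_inv, mul_comm (t j), mul_inv_cancel_left]
  · intro h
    have h1 := Units.map_injective (f := (σ : F →* F)) σ.injective h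
    rw [hs1, hs2, tt_inr, tt_inl] at h1
    rw [← h1, inv_mul_cancel_right]

/-- **the torus trick** -/
theorem core [Finite F] {z : Fˣ} (hz : ∀ u : Fˣ, u ∈ Subgroup.zpowers z) (hz1 : z ≠ 1) {μ μ' : Fˣ} {t : Fin (n + 2) → Fˣ}
    (h0 : t 0 = z * t 1) (h1 : t 0 * t (Fin.last (n + 1)) ≠ μ) {σ : F ≃+* F}
    {M : Subgroup (Equiv.Perm (Vec (n + 2) F))} (hh : tor μ t ∈ M)
    (hw : R F (Sum.inl 0) (Sum.inr 1) 1 * wcox n μ' σ ∈ M) :
    X F n ≤ M ∧ wcox n μ' σ ∈ M := by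
  obtain ⟨t', ht', ht1⟩ := wcox_tor μ μ' t σ
  have hzt : t 0 * (t 1)⁻¹ = z := by rw [h0, mul_inv_cancel_right]
  have hzF : (t 0 : F) * ((t 1)⁻¹ : Fˣ) = z := by rw [← Units.val_mul, hzt]
  have hne : (Sum.inl 0 : Fin (n + 2) ⊕ Fin (n + 2)) ≠ Sum.inr 1 := by simp
  have hop : (Sum.inr 1 : Fin (n + 2) ⊕ Fin (n + 2)) ≠ op (Sum.inl 0) := by simp
  refine Cfsg.Agent.H136.TwoGen.torus_trick M (X F n) hh hw ⟨1, rfl⟩ ?_ ?_ ?_ ?_ ?_ ?_ ?_
  · rintro _ ⟨s, rfl⟩
    rw [ht', tor_R]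
    exact ⟨_, rfl⟩
  · rintro _ ⟨s, rfl⟩
    rw [ht', tor_R']
    exact ⟨_, rfl⟩
  · intro Y hY hhY
    let A : AddSubgroup F :=
      { carrier := {s | R F (Sum.inl 0) (Sum.inr 1) s ∈ Y}
        add_mem' := fun {a b} ha hb => by
          show R F _ _ (a + b) ∈ Y
          rw [← R_mul hop]
          exact Y.mul_mem ha hb
        zero_mem' := by
          show R F _ _ 0 ∈ Y
          rw [R_zero hop]
          exact Y.one_mem
        neg_mem' := fun {a} ha => by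
          show R F _ _ (-a) ∈ Y
          rw [← R_inv hop]
          exact Y.inv_mem ha }
    have hA : ∀ a ∈ A, (z : F) ^ 2 * a ∈ A := by
      have h2 : ∀ a ∈ A, (z : F) * a ∈ A := by
        intro a ha
        have := hhY _ ha
        rw [tor_R, hzF] at this
        exact this
      intro a ha
      rw [pow_two, mul_assoc]
      exact h2 _ (h2 _ ha)
    rcases Cfsg.Agent.H136.FieldLem.eq_bot_or_top hz A hA with h | h
    · left
      rw [eq_bot_iff]
      intro y hy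
      obtain ⟨s, rfl⟩ := hY hy
      have h2 : s ∈ A := hy
      rw [h] at h2
      rw [AddSubgroup.mem_bot.1 h2, R_zero hop]
      exact Subgroup.mem_bot.2 rfl
    · right
      refine le_antisymm hY ?_
      rintro _ ⟨s, rfl⟩
      have h2 : s ∈ A := by rw [h]; trivial
      exact h2
  · refine ⟨R F (Sum.inl 0) (Sum.inr 1) 1, ⟨1, rfl⟩, fun e => hz1 ?_⟩
    have h2 := tor_R μ t (1 : F)
    rw [e, mul_inv_cancel_right, hzF, mul_one] at h2
    have h3 : (1 : F) = z := R_inj hop hne h2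
    exact Units.ext h3.symm
  · rintro _ ⟨s, rfl⟩
    rw [tor_R]
    exact ⟨_, rfl⟩
  · rw [ht', tor, tor, diag_comm]
  · rw [ht']
    intro e
    have h2 := tor_R (Units.map (σ : F →* F) μ) t' (1 : F)
    rw [e, mul_inv_cancel_right, mul_one] at h2
    have h3 : (1 : F) = (t' 0 : F) * ((t' 1)⁻¹ : Fˣ) := R_inj hop hne h2
    have h4 : t' 0 * (t' 1)⁻¹ = 1 := Units.ext (by rw [Units.val_mul, ← h3, Units.val_one])
    exact h1 (ht1 (mul_inv_eq_one.1 h4))

/-- spreading the root group -/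
theorem spread {μ' : Fˣ} {σ : F ≃+* F} {M : Subgroup (Equiv.Perm (Vec (n + 2) F))} (hX : X F n ≤ M)
    (hw : wcox n μ' σ ∈ M) (k : ℕ) (s : F) : R F (E n k) (E n (k + (n + 2 + 1))) s ∈ M := by
  induction k generalizing s with
  | zero =>
    rw [zero_add, E_three, E_zero]
    exact hX ⟨s, rfl⟩
  | succ k ih =>
    have hk : E n (k + (n + 2 + 1)) ≠ op (E n k) := by
      rw [op_E]
      exact E_ne (by omega) (by omega) (by omega)
    obtain ⟨c, hc⟩ : ∃ c : Fˣ, ∀ s, wcox n μ' σ * R F (E n k) (E n (k + (n + 2 + 1))) s * (wcox n μ' σ)⁻¹ =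
        R F (E n (k + 1)) (E n (k + 1 + (n + 2 + 1))) (c * σ s) := by
      refine ⟨cc n μ' (E n k) * cc n μ' (E n (k + (n + 2 + 1))) * μ'⁻¹, fun s => ?_⟩
      have h := mono_R (F := F) (m := n + 2) (π := cox n) (c := cc n μ') (σ := σ) (l := (μ' : F)) μ'.ne_zero
        cox_op (isSemi_wcox μ' σ) hk s
      rw [wcox, h, ← E_succ, ← E_succ, show k + (n + 2 + 1) + 1 = k + 1 + (n + 2 + 1) by omega]
      congr 1
      push_cast
      ring
    have h1 := hc (σ.symm (((c⁻¹ : Fˣ) : F) * s))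
    rw [RingEquiv.apply_symm_apply, Units.mul_inv_cancel_left] at h1
    rw [← h1]
    exact M.mul_mem (M.mul_mem hw (ih _)) (M.inv_mem hw)

theorem le_of_core [Finite F] {z : Fˣ} (hz : ∀ u : Fˣ, u ∈ Subgroup.zpowers z) (hz1 : z ≠ 1) {μ μ' : Fˣ} {t : Fin (n + 2) → Fˣ}
    (h0 : t 0 = z * t 1) (h1 : t 0 * t (Fin.last (n + 1)) ≠ μ) {σ : F ≃+* F}
    {M : Subgroup (Equiv.Perm (Vec (n + 2) F))} (hh : tor μ t ∈ M)
    (hw : R F (Sum.inl 0) (Sum.inr 1) 1 * wcox n μ' σ ∈ M)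
    (hL : (2 : F) ≠ 0 ∨ ∃ a, L F a 1 ∈ M) : (rho (n + 2) F).range ≤ M := by
  obtain ⟨hX, hw'⟩ := core hz hz1 h0 h1 hh hw
  have hs := spread hX hw'
  refine range_le_of_roots M (fun a b h2 h3 s => R_all M hs h2 h3 s) fun a s => ?_
  by_cases h2 : (2 : F) = 0
  · rcases hL with hL | ⟨a₀, hL⟩
    · exact absurd h2 hL
    · exact long_of_one (by omega) h2 M (fun a b h2 h3 s => R_all M hs h2 h3 s) a₀ hL a s
  · exact L_all M hs h2 a s

end Torus

section Lifts

variable {F : Type*} [Field F] {m n : ℕ}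

theorem mem_range {g : Equiv.Perm (Vec m F)} (h : IsSemi g (RingEquiv.refl F) 1) : g ∈ (rho m F).range := by
  obtain ⟨A, hA⟩ := exists_rho_eq g h.1 (fun a v => h.2.1 a v) (fun u v => by rw [h.2.2, one_mul]; rfl)
  exact ⟨A, hA⟩

theorem inv_mul_mem {g h : Equiv.Perm (Vec m F)} {φ : F ≃+* F} {l : F} (hl : l ≠ 0) (hg : IsSemi g φ l)
    (hh : IsSemi h φ l) : g⁻¹ * h ∈ (rho m F).range := by
  have h1 := (hg.inv hl).mul hh
  have e1 : φ.trans φ.symm = RingEquiv.refl F := by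
    ext a
    simp
  have e2 : φ.symm l⁻¹ * φ.symm l = 1 := by
    rw [← map_mul, inv_mul_cancel₀ hl, map_one]
  rw [e1, e2] at h1
  exact mem_range h1

theorem L_mul (a : Fin m ⊕ Fin m) (s t : F) : L F a s * L F a t = L F a (s + t) := by
  rw [L, L, L, ← map_mul]
  apply congrArg
  apply rho_injective
  ext1 x
  rw [map_mul, Equiv.Perm.mul_apply, rho_transv, rho_transv, rho_transv, sympForm_add_left, sympForm_smul_left,
    sympForm_self]
  module

theorem L_zero (a : Fin m ⊕ Fin m) : L F a 0 = 1 := by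
  ext1 x
  rw [L, rho_transv]
  simp

theorem lift_odd [Finite F] {z : Fˣ} (hz : ∀ u : Fˣ, u ∈ Subgroup.zpowers z) (hz1 : z ≠ 1) {μ μ' : Fˣ}
    {t : Fin (n + 2) → Fˣ} (h0 : t 0 = z * t 1) (h1 : t 0 * t (Fin.last (n + 1)) ≠ μ) {σ : F ≃+* F}
    (h2 : (2 : F) ≠ 0) {x y : Equiv.Perm (Vec (n + 2) F)} (hx : IsSemi x (RingEquiv.refl F) (μ : F))
    (hy : IsSemi y σ (μ' : F)) : Lift (rho (n + 2) F).range x y := by
  refine ⟨x⁻¹ * tor μ t, inv_mul_mem μ.ne_zero hx (isSemi_tor μ t),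
    y⁻¹ * (R F (Sum.inl 0) (Sum.inr 1) 1 * wcox n μ' σ), ?_, ?_⟩
  · refine inv_mul_mem μ'.ne_zero hy ?_
    have h3 := (isSemi_rho (et (bv F (Sum.inl 0 : Fin (n + 2) ⊕ Fin (n + 2))) (bv F (Sum.inr 1)) 1)).mul
      (isSemi_wcox μ' σ)
    rw [one_mul] at h3
    exact h3
  · rw [mul_inv_cancel_left, mul_inv_cancel_left]
    exact le_of_core (μ' := μ') (σ := σ) hz hz1 h0 h1 (Subgroup.subset_closure (by simp))
      (Subgroup.subset_closure (by simp)) (Or.inl h2)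

theorem lift_even [Fintype F] {z : Fˣ} (hz : ∀ u : Fˣ, u ∈ Subgroup.zpowers z) (hz1 : z ≠ 1) {μ μ' : Fˣ}
    {σ : F ≃+* F} (h2 : (2 : F) = 0) {x y : Equiv.Perm (Vec (n + 2) F)} (hx : IsSemi x (RingEquiv.refl F) (μ : F))
    (hy : IsSemi y σ (μ' : F)) : Lift (rho (n + 2) F).range x y := by
  classical
  have hch : CharP F 2 := CharTwo.of_one_ne_zero_of_two_eq_zero one_ne_zero h2
  have hodd : Odd (Fintype.card Fˣ) := by
    rw [← Nat.not_even_iff_odd]
    intro h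
    obtain ⟨u, hu⟩ := exists_prime_orderOf_dvd_card 2 (even_iff_two_dvd.1 h)
    have h3 : u ^ 2 = 1 := by rw [← hu]; exact pow_orderOf_eq_one u
    have h4 : (u : F) = 1 := by
      have h5 : ((u : F) - 1) ^ 2 = 0 := by
        have h6 : (u : F) ^ 2 = 1 := by rw [← Units.val_pow_eq_pow_val, h3, Units.val_one]
        linear_combination h6 + (1 - (u : F)) * h2
      exact sub_eq_zero.1 (pow_eq_zero_iff (by norm_num) |>.1 h5)
    have h5 : u = 1 := Units.ext h4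
    rw [h5, orderOf_one] at hu
    omega
  obtain ⟨ν, hν⟩ : ∃ ν : Fˣ, ν ^ 2 = μ := by
    obtain ⟨k, hk⟩ := hodd
    refine ⟨μ ^ (k + 1), ?_⟩
    rw [← pow_mul, show (k + 1) * 2 = Fintype.card Fˣ + 1 by omega, pow_succ, pow_card_eq_one, one_mul]
  set t : Fin (n + 2) → Fˣ := fun i => if i = 0 then z * ν else ν with ht
  have ht0 : t 0 = z * ν := if_pos rfl
  have ht1 : ∀ i, i ≠ 0 → t i = ν := fun i hi => if_neg hi
  have h10 : (1 : Fin (n + 2)) ≠ 0 := by simp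
  have hl0 : Fin.last (n + 1) ≠ 0 := Fin.last_pos.ne'
  set a : Fin (n + 2) ⊕ Fin (n + 2) := Sum.inl (Fin.last (n + 1)) with ha
  -- the two commuting elements
  have hcomm : tor μ t * L F a 1 = L F a 1 * tor μ t := by
    have h := mono_L (F := F) (m := n + 2) (π := Equiv.refl _) (c := tt μ t) (σ := RingEquiv.refl F) (l := (μ : F))
      μ.ne_zero (isSemi_tor μ t) a 1
    rw [← mul_inv_eq_iff_eq_mul, tor, h]
    congr 1
    rw [ha, tt_inl, ht1 _ hl0, RingEquiv.refl_apply, mul_one, ← Units.val_pow_eq_pow_val, hν, Units.mul_inv']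
  have hq1 : tor μ t ^ Fintype.card Fˣ = 1 := by
    rw [tor, diag_pow]
    ext1 v
    funext b
    rw [mono_apply, Pi.pow_apply, pow_card_eq_one]
    simp
  have hq2 : L F a 1 ^ 2 = (1 : Equiv.Perm (Vec (n + 2) F)) := by
    rw [pow_two, L_mul, one_add_one_eq_two, h2, L_zero]
  refine ⟨x⁻¹ * (tor μ t * L F a 1), ?_, y⁻¹ * (R F (Sum.inl 0) (Sum.inr 1) 1 * wcox n μ' σ), ?_, ?_⟩
  · refine inv_mul_mem μ.ne_zero hx ?_
    have h3 := (isSemi_tor μ t).mul (isSemi_rho (transv (bv F a) 1))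
    rw [map_one, mul_one] at h3
    exact h3
  · refine inv_mul_mem μ'.ne_zero hy ?_
    have h3 := (isSemi_rho (et (bv F (Sum.inl 0 : Fin (n + 2) ⊕ Fin (n + 2))) (bv F (Sum.inr 1)) 1)).mul
      (isSemi_wcox μ' σ)
    rw [one_mul] at h3
    exact h3
  · rw [mul_inv_cancel_left, mul_inv_cancel_left]
    set M := Subgroup.closure ({tor μ t * L F a 1, R F (Sum.inl 0) (Sum.inr 1) 1 * wcox n μ' σ} :
      Set (Equiv.Perm (Vec (n + 2) F))) with hM
    have hxM : tor μ t * L F a 1 ∈ M := Subgroup.subset_closure (by simp)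
    have hLM : L F a 1 ∈ M := by
      have h3 : (tor μ t * L F a 1) ^ Fintype.card Fˣ = L F a 1 := by
        rw [(show Commute (tor μ t) (L F a 1) from hcomm).mul_pow, hq1, one_mul]
        obtain ⟨k, hk⟩ := hodd
        rw [hk, pow_succ, pow_mul, hq2, one_pow, one_mul]
      rw [← h3]
      exact M.pow_mem hxM _
    have htM : tor μ t ∈ M := by
      have h3 := M.mul_mem hxM (M.inv_mem hLM)
      rwa [mul_inv_cancel_right] at h3
    refine le_of_core (μ := μ) (t := t) (μ' := μ') (σ := σ) hz hz1 ?_ ?_ htM (Subgroup.subset_closure (by simp))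
      (Or.inr ⟨a, hLM⟩)
    · rw [ht0, ht1 1 h10]
    · rw [ht0, ht1 _ hl0, mul_assoc, ← pow_two, hν]
      intro h3
      exact hz1 (mul_eq_right.1 h3)

end Lifts

end Cfsg.Agent.H97.DG
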